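import Cfsg.Agent.H781.EPO.Q2SpNode
import Cfsg.Agent.H737.EPO.Q2Of
import Cfsg.Agent.H742.PanU
import Cfsg.Agent.KFacts.RgdFiltClass

/-!
# S5745, own characteristic, `q = 2`: the family `PSp_{2m}(2)` (helper781)

* `dead_PSp_of` : `m ≥ 3`; for `m = 3` the nodes 1 and 2 are the hypothesis `SixRest`;
* `dead_PSp` : `m ≥ 4`.
-/

set_option autoImplicit false
set_option linter.unusedSectionVars false

namespace Cfsg.Agent.H781.EPO

open Cfsg Cfsg.Agent.H284 Cfsg.Agent.H209.EPX Cfsg.Agent.H737.EPO Cfsg.Agent.H869.EPO Cfsg.Agent.H742.EX.Q2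
open CoxeterSystem Cfsg.Agent.ChevalleyStructure.CoxeterGeom Cfsg.Agent.Tits.Roots Cfsg.Agent.Tits.Core
  Cfsg.Agent.Tits.RootComb Cfsg.Agent.Tits.Exchange Cfsg.Agent.Nodes.Reps Cfsg.Agent.Nodes.BNOf
  Cfsg.Agent.Nodes.StabComb Cfsg.Agent.Nodes.Bruhat Cfsg.Agent.Nodes.OppDec Cfsg.Agent.Nodes.LeviDec
  Cfsg.Agent.Nodes.Coroot Cfsg.Agent.KFacts.RgdPar Cfsg.Agent.KFacts.RgdSL Cfsg.Agent.KFacts.RgdVJ
  Cfsg.Agent.KFacts.RgdCharP Cfsg.Agent.H50.Her Cfsg.Agent.KFacts.RgdFilt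

/-- the state `Q2` at the nodes 1 and 2 of `Sp₆(2)` does not occur -/
def SixRest {G : Type} [Group G] [Finite G] (H N : Subgroup G) (T : Type) [Group T] [Finite T] : Prop :=
  ∀ (A : Fin 3 → Fin 3 → ℤ) (hC : IsCartan (CoxeterMatrix.B 3) A) (Tt : Subgroup T) (n : Fin 3 → T)
    (X : (Fin 3 → ℤ) → Subgroup T) (_ : Finite (CoxeterMatrix.B 3).Group) (_ : Fact (Nat.Prime 2))
    (R : RGD (CoxeterMatrix.B 3).toCoxeterSystem hC 2 Tt n X) (hBT : BT (CoxeterMatrix.B 3).toCoxeterSystem hC 2 Tt X)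
    (hG : GG (CoxeterMatrix.B 3).toCoxeterSystem hC Tt X = ⊤)
    (hX : RGD.Sup X {x | IsRoot (CoxeterMatrix.B 3).toCoxeterSystem hC x} = ⊤) (hconn : Conn (CoxeterMatrix.B 3))
    (e' : N ≃* (Fin 1 → T)) (R₀ : Subgroup G) (i : Fin 3) (t : G),
    Q2 H R₀ e' (ofRGD R hBT hG hX hconn) i t → (∀ j, Nat.card (X (sr j)) = 2) → i ≠ 0 → False

/-- **`PSp_{2m}(2)`**, `m ≥ 3` -/
theorem dead_PSp_of {G : Type} [Group G] [Finite G] [IsSimpleGroup G] (hGF : HasFilt 2 G) {F : Fam} {f : ℕ}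
    (hok : okF F f = true) (hord : IsOrd F f G) {H N : Subgroup G} {T : Type} [Group T] {k : ℕ}
    {e : N ≃* (Fin k → T)} (h : EPS H N e) {K : Type} [Field K] [Fintype K] (hK : Fintype.card K = 2) {m : ℕ}
    (hm : 3 ≤ m) (g : T ≃* PSp m K) (h3 : m = 3 → ∀ [Finite T], SixRest H N T) : False := by
  have hfT : Finite T := Finite.of_equiv _ g.symm.toEquiv
  have h2 : Fact (Nat.Prime 2) := ⟨Nat.prime_two⟩
  have hch : CharP K 2 := by
    obtain ⟨q, hq⟩ := CharP.exists K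
    obtain ⟨n, hp, hn⟩ := FiniteField.card K q
    rw [hK] at hn
    have h5 : (2 : ℕ) ∣ q ^ (n : ℕ) := by rw [← hn]
    have h4 : (2 : ℕ) = q := (Nat.prime_dvd_prime_iff_eq Nat.prime_two hp).1 (Nat.prime_two.dvd_of_dvd_pow h5)
    rw [h4]
    exact hq
  have hP : HasPan 2 (CoxeterMatrix.B m) (fun _ => 2) T := by
    have h5 := H742.pan_psp (F := K) (m := m) (by omega) (p := 2)
    rw [Nat.card_eq_fintype_card, hK] at h5
    exact h5.of_equiv g.symm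
  have hF : HasFilt 2 T := (KFacts.RgdFiltClass.hasFilt_PSp (F := K) (m := m) (by omega)).of_equiv g.symm
  obtain ⟨hk, A, hC, Tt, n, X, hW, h2', R, hBT, hG, hX, hconn, e', R₀, i, t, q, hq, -, hres⟩ :=
    q2_pan (by omega) h hGF hP hF (Or.inl hm)
  subst hk
  have hT := h.simple
  by_cases hi : (i : ℕ) = 0
  · exact dead_zero R hBT hG hX hconn h.nab q hq hi hok hord h hK hm g
  · rcases TThree.surv_C R hq hres with h5 | h5
    · exact hi h5
    · have hm3 : m = 3 := by omega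
      subst hm3
      exact h3 rfl A hC Tt n X hW h2 R hBT hG hX hconn e' R₀ i t q hq (fun e1 => hi (by rw [e1]; rfl))

/-- **`PSp_{2m}(2)`**, `m ≥ 4` -/
theorem dead_PSp {G : Type} [Group G] [Finite G] [IsSimpleGroup G] (hGF : HasFilt 2 G) {F : Fam} {f : ℕ}
    (hok : okF F f = true) (hord : IsOrd F f G) {H N : Subgroup G} {T : Type} [Group T] {k : ℕ}
    {e : N ≃* (Fin k → T)} (h : EPS H N e) {K : Type} [Field K] [Fintype K] (hK : Fintype.card K = 2) {m : ℕ}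
    (hm : 4 ≤ m) (g : T ≃* PSp m K) : False :=
  dead_PSp_of hGF hok hord h hK (by omega) g fun e1 => by omega

end Cfsg.Agent.H781.EPO
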